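import Mathlib
import Cfsg.Prelude.Def_SporadicB
import Cfsg.Agent.H10.Cover

/-!
# Classes of 3-transpositions from double coset representatives (helper10)

If `G` is simple, `t` is an involution, and `G` is the union of `C`, `C gA C` and `C gB C` for
`C = C_G(t)`, where `t * t ^ gA` has order dividing three and `t * t ^ gB` has order dividing two,
then the class of `t` is a class of 3-transpositions.
-/

set_option autoImplicit false

namespace Cfsg.Agent.H10

/-- membership in the set of conjugates -/
theorem mem_conjOf_iff {G : Type*} [Group G] (t d : G) :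
    d ∈ conjugatesOf t ↔ ∃ c : G, c * t * c⁻¹ = d :=
  isConj_iff

/-- the number of conjugates of an element is the index of its centraliser -/
theorem card_conjugatesOf_eq_index {G : Type*} [Group G] (t : G) :
    Nat.card (conjugatesOf t) = (Subgroup.centralizer ({t} : Set G)).index := by
  have hmem : ∀ g : G, g * t * g⁻¹ ∈ conjugatesOf t := fun g =>
    (mem_conjOf_iff t _).mpr ⟨g, rfl⟩
  have hc : ∀ a b : G, a⁻¹ * b ∈ Subgroup.centralizer ({t} : Set G) ↔
      a * t * a⁻¹ = b * t * b⁻¹ := by
    intro a b
    rw [Subgroup.mem_centralizer_iff]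
    constructor
    · intro h
      have h1 := h t (Set.mem_singleton t)
      calc a * t * a⁻¹ = a * (t * (a⁻¹ * b)) * b⁻¹ := by group
        _ = a * (a⁻¹ * b * t) * b⁻¹ := by rw [h1]
        _ = b * t * b⁻¹ := by group
    · intro h x hx
      rw [Set.mem_singleton_iff] at hx
      subst hx
      calc x * (a⁻¹ * b) = a⁻¹ * (a * x * a⁻¹) * b := by group
        _ = a⁻¹ * (b * x * b⁻¹) * b := by rw [h]
        _ = a⁻¹ * b * x := by group
  let F : G ⧸ Subgroup.centralizer ({t} : Set G) → conjugatesOf t :=
    Quotient.lift (fun g : G => (⟨g * t * g⁻¹, hmem g⟩ : conjugatesOf t)) (by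
      intro a b hab
      exact Subtype.ext ((hc a b).mp (QuotientGroup.leftRel_apply.mp hab)))
  have hF : Function.Bijective F := by
    constructor
    · intro a b
      induction a using QuotientGroup.induction_on with
      | H a =>
        induction b using QuotientGroup.induction_on with
        | H b =>
          intro h
          apply QuotientGroup.eq.mpr
          exact (hc a b).mpr (Subtype.ext_iff.mp h)
    · rintro ⟨d, hd⟩
      obtain ⟨c, hc'⟩ := (mem_conjOf_iff t _).mp hd
      exact ⟨(c : G ⧸ Subgroup.centralizer ({t} : Set G)), Subtype.ext hc'⟩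
  rw [Subgroup.index]
  exact (Nat.card_congr (Equiv.ofBijective F hF)).symm

/-- conjugation by an element of the centraliser -/
theorem conj_eq_of_mem_centralizer {G : Type*} [Group G] (t s : G)
    (hs : s ∈ Subgroup.centralizer ({t} : Set G)) : s * t * s⁻¹ = t := by
  rw [Subgroup.mem_centralizer_iff] at hs
  have h1 := hs t (Set.mem_singleton t)
  rw [← h1, mul_inv_cancel_right]

/-- membership in the centraliser from conjugation -/
theorem mem_centralizer_of_conj_eq {G : Type*} [Group G] (t s : G) (hs : s * t * s⁻¹ = t) :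
    s ∈ Subgroup.centralizer ({t} : Set G) := by
  rw [Subgroup.mem_centralizer_iff]
  intro x hx
  rw [Set.mem_singleton_iff] at hx
  subst hx
  calc x * s = s * x * s⁻¹ * s := by rw [hs]
    _ = s * x := by group

/-- the order of `t * t ^ g` is constant on double cosets of the centraliser -/
theorem conj_prod_pow {G : Type*} [Group G] (t u h s : G) (hh : h * t * h⁻¹ = t)
    (hs : s * t * s⁻¹ = t) (n : ℕ) (hu : (t * (u * t * u⁻¹)) ^ n = 1) :
    (t * ((h * u * s) * t * (h * u * s)⁻¹)) ^ n = 1 := by
  have e1 : (h * u * s) * t * (h * u * s)⁻¹ = h * (u * (s * t * s⁻¹) * u⁻¹) * h⁻¹ := by group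
  have e2 : t * (h * (u * t * u⁻¹) * h⁻¹) = h * (t * (u * t * u⁻¹)) * h⁻¹ := by
    calc t * (h * (u * t * u⁻¹) * h⁻¹) = (h * t * h⁻¹) * (h * (u * t * u⁻¹) * h⁻¹) := by rw [hh]
      _ = h * (t * (u * t * u⁻¹)) * h⁻¹ := by group
  rw [e1, hs, e2, conj_pow, hu, mul_one, mul_inv_cancel]

/-- the class of an involution of a simple group is a class of 3-transpositions, given double
coset representatives of its centraliser -/
theorem threeTranspositionClass_of {G : Type*} [Group G] [hsim : IsSimpleGroup G] (t : G)
    (ht : t ≠ 1) (ht2 : t ^ 2 = 1) (gA gB : G)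
    (hA : (t * (gA * t * gA⁻¹)) ^ 3 = 1) (hB : (t * (gB * t * gB⁻¹)) ^ 2 = 1)
    (hdc : ∀ g : G, g ∈ Subgroup.centralizer ({t} : Set G) ∨
      (∃ h ∈ Subgroup.centralizer ({t} : Set G), ∃ s ∈ Subgroup.centralizer ({t} : Set G),
        g = h * gA * s) ∨
      (∃ h ∈ Subgroup.centralizer ({t} : Set G), ∃ s ∈ Subgroup.centralizer ({t} : Set G),
        g = h * gB * s)) :
    Cfsg.IsThreeTranspositionClass (conjugatesOf t) := by
  refine ⟨⟨?_, ?_⟩, ⟨t, mem_conjugatesOf_self, rfl⟩, ?_⟩
  · intro d hd
    obtain ⟨c, rfl⟩ := (mem_conjOf_iff t _).mp hd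
    have : Fact (Nat.Prime 2) := ⟨Nat.prime_two⟩
    apply orderOf_eq_prime
    · rw [conj_pow, ht2, mul_one, mul_inv_cancel]
    · intro h
      apply ht
      have h3 : t = c⁻¹ * (c * t * c⁻¹) * c := by group
      rw [h3, h]; group
  · intro d hd e he
    obtain ⟨x, rfl⟩ := (mem_conjOf_iff t _).mp hd
    obtain ⟨y, rfl⟩ := (mem_conjOf_iff t _).mp he
    have e1 : x * t * x⁻¹ * (y * t * y⁻¹) =
        x * (t * ((x⁻¹ * y) * t * (x⁻¹ * y)⁻¹)) * x⁻¹ := by group
    rw [e1, conj_pow, conj_pow]
    rcases hdc (x⁻¹ * y) with hg | ⟨h, hh, s, hs, hg⟩ | ⟨h, hh, s, hs, hg⟩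
    · left
      rw [conj_eq_of_mem_centralizer t _ hg, ← pow_two, ht2, one_pow, mul_one, mul_inv_cancel]
    · right
      rw [hg, conj_prod_pow t gA h s (conj_eq_of_mem_centralizer t h hh)
        (conj_eq_of_mem_centralizer t s hs) 3 hA, mul_one, mul_inv_cancel]
    · left
      rw [hg, conj_prod_pow t gB h s (conj_eq_of_mem_centralizer t h hh)
        (conj_eq_of_mem_centralizer t s hs) 2 hB, mul_one, mul_inv_cancel]
  · have hn : (Subgroup.closure (conjugatesOf t)).Normal := by
      have hset : conjugatesOf t = Group.conjugatesOfSet {t} := by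
        simp [Group.conjugatesOfSet]
      rw [hset]
      exact Subgroup.normalClosure_normal
    rcases hsim.eq_bot_or_eq_top_of_normal _ hn with h | h
    · exfalso
      apply ht
      have hm : t ∈ Subgroup.closure (conjugatesOf t) :=
        Subgroup.subset_closure mem_conjugatesOf_self
      rw [h, Subgroup.mem_bot] at hm
      exact hm
    · exact h

/-- transport of the criterion for non-split double covers along an isomorphism -/
theorem nonsplitDoubleCover_of_equiv {P H K : Type*} [Group P] [Group H] [Group K] [Finite K]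
    (e : P ≃* H) (ψ : P →* K) (hs : Function.Surjective ψ) (hK : Subgroup.center K = ⊥)
    (hcard : Nat.card P = 2 * Nat.card K) (hperf : ∀ L : Subgroup P, L.index ≠ 2) :
    Cfsg.IsNonsplitDoubleCover H K := by
  apply nonsplitDoubleCover_of (ψ.comp e.symm.toMonoidHom)
  · exact hs.comp e.symm.surjective
  · exact hK
  · rw [← hcard]
    exact Nat.card_congr e.symm.toEquiv
  · intro L hL
    apply hperf (L.comap e.toMonoidHom)
    rw [Subgroup.index_comap_of_surjective L e.surjective]
    exact hL

/-- the centraliser of a conjugate of `t` is isomorphic to a group mapping bijectively onto the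
centraliser of `t` -/
theorem exists_equiv_centralizer_conj {P G : Type*} [Group P] [Group G] (φ : P →* G)
    (hφ : Function.Injective φ) (t c : G)
    (hr : φ.range = Subgroup.centralizer ({t} : Set G)) :
    Nonempty (P ≃* Subgroup.centralizer ({c * t * c⁻¹} : Set G)) := by
  have hmem : ∀ x : P, c * φ x * c⁻¹ ∈ Subgroup.centralizer ({c * t * c⁻¹} : Set G) := by
    intro x
    have hx : φ x ∈ Subgroup.centralizer ({t} : Set G) := by
      rw [← hr]; exact ⟨x, rfl⟩
    apply mem_centralizer_of_conj_eq
    have h1 := conj_eq_of_mem_centralizer t _ hx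
    calc c * φ x * c⁻¹ * (c * t * c⁻¹) * (c * φ x * c⁻¹)⁻¹
        = c * (φ x * t * (φ x)⁻¹) * c⁻¹ := by group
      _ = c * t * c⁻¹ := by rw [h1]
  let κ : P →* Subgroup.centralizer ({c * t * c⁻¹} : Set G) :=
    { toFun := fun x => ⟨c * φ x * c⁻¹, hmem x⟩
      map_one' := by
        apply Subtype.ext
        show c * φ 1 * c⁻¹ = 1
        rw [map_one, mul_one, mul_inv_cancel]
      map_mul' := by
        intro x y
        apply Subtype.ext
        show c * φ (x * y) * c⁻¹ = c * φ x * c⁻¹ * (c * φ y * c⁻¹)
        rw [map_mul]; group }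
  have hκ : Function.Bijective κ := by
    constructor
    · intro x y hxy
      have h1 : c * φ x * c⁻¹ = c * φ y * c⁻¹ := Subtype.ext_iff.mp hxy
      exact hφ (mul_left_cancel (mul_right_cancel h1))
    · rintro ⟨g, hg⟩
      have hg' : c⁻¹ * g * c ∈ Subgroup.centralizer ({t} : Set G) := by
        apply mem_centralizer_of_conj_eq
        have h1 := conj_eq_of_mem_centralizer _ _ hg
        calc c⁻¹ * g * c * t * (c⁻¹ * g * c)⁻¹ = c⁻¹ * (g * (c * t * c⁻¹) * g⁻¹) * c := by group
          _ = c⁻¹ * (c * t * c⁻¹) * c := by rw [h1]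
          _ = t := by group
      rw [← hr] at hg'
      obtain ⟨x, hx⟩ := hg'
      refine ⟨x, Subtype.ext ?_⟩
      show c * φ x * c⁻¹ = g
      rw [hx]; group
  exact ⟨MulEquiv.ofBijective κ hκ⟩

end Cfsg.Agent.H10
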