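import Mathlib
import Cfsg.Prelude.Def_SporadicB

set_option autoImplicit false

namespace Cfsg.Agent.H10

variable {G : Type*} [Group G]

theorem inv_mul_self_of_orderOf_two {d : G} (h : orderOf d = 2) : d * d = 1 := by
  rw [← pow_two, ← h, pow_orderOf_eq_one]

theorem inv_eq_self_of_mul_self {d : G} (h : d * d = 1) : d⁻¹ = d :=
  inv_eq_of_mul_eq_one_left h

theorem invol_cancel {x : G} (h : x * x = 1) (y : G) : x * (x * y) = y := by
  rw [← mul_assoc, h, one_mul]

theorem tts_mul_self {E : Set G} (hE : Cfsg.IsThreeTranspositionSet E) {d : G} (hd : d ∈ E) :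
    d * d = 1 := inv_mul_self_of_orderOf_two (hE.1 d hd)

theorem tts_inv {E : Set G} (hE : Cfsg.IsThreeTranspositionSet E) {d : G} (hd : d ∈ E) :
    d⁻¹ = d := inv_eq_self_of_mul_self (tts_mul_self hE hd)

theorem commute_of_sq_mul {d e : G} (hd : d * d = 1) (he : e * e = 1) (h : (d * e) ^ 2 = 1) :
    Commute d e := by
  have h1 : d * e * (d * e) = 1 := by rw [← pow_two]; exact h
  have h2 : d * e = (d * e)⁻¹ := (inv_eq_of_mul_eq_one_left h1).symm
  rw [mul_inv_rev, inv_eq_self_of_mul_self hd, inv_eq_self_of_mul_self he] at h2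
  exact h2

theorem braid_of_cube_mul {d e : G} (hd : d * d = 1) (he : e * e = 1) (h : (d * e) ^ 3 = 1) :
    d * e * d = e * d * e := by
  have h1 : d * e * (d * e) * (d * e) = 1 := by rw [← h]; simp [pow_succ]
  have h2 : d * e * d = (e * (d * e))⁻¹ := by
    rw [eq_inv_iff_mul_eq_one]
    rw [← h1]; simp [mul_assoc]
  rw [h2, mul_inv_rev, mul_inv_rev, inv_eq_self_of_mul_self hd, inv_eq_self_of_mul_self he]

/-- In a 3-transposition set, two members commute or satisfy the braid relation. -/
theorem tts_commute_or_braid {E : Set G} (hE : Cfsg.IsThreeTranspositionSet E) {d e : G}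
    (hd : d ∈ E) (he : e ∈ E) : Commute d e ∨ d * e * d = e * d * e := by
  rcases hE.2 d hd e he with h | h
  · exact Or.inl (commute_of_sq_mul (tts_mul_self hE hd) (tts_mul_self hE he) h)
  · exact Or.inr (braid_of_cube_mul (tts_mul_self hE hd) (tts_mul_self hE he) h)

end Cfsg.Agent.H10
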